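import Mathlib

/-!
A group without abelian normal subgroups is not transitive on two or three points.
-/

set_option autoImplicit false
set_option linter.style.haveILetI false

namespace Cfsg.Agent.DerIdx

open MulAction

theorem four_le_card_of_no_abelian_normal {G Ω : Type*} [Group G] [Finite G] [MulAction G Ω]
    [FaithfulSMul G Ω] [Finite Ω] [IsPretransitive G Ω] (h2 : 2 ≤ Nat.card Ω)
    (hna : ∀ N : Subgroup G, N.Normal → IsMulCommutative ↥N → N = ⊥) : 4 ≤ Nat.card Ω := by
  by_contra h4
  obtain ⟨x⟩ : Nonempty Ω := (Nat.card_pos_iff.1 (show 0 < Nat.card Ω by omega)).1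
  have hdvd : Nat.card G ∣ (Nat.card Ω).factorial := by
    rw [← Nat.card_perm]
    exact Subgroup.card_dvd_of_injective (MulAction.toPermHom G Ω) MulAction.toPerm_injective
  have hnG : Nat.card Ω ∣ Nat.card G := by
    rw [← index_stabilizer_of_transitive G x]
    exact Subgroup.index_dvd_card _
  have hnot : ¬ ∀ a b : G, a * b = b * a := by
    intro hc
    have htop : (⊤ : Subgroup G) = ⊥ :=
      hna ⊤ inferInstance ⟨⟨fun a b => Subtype.ext (hc a b)⟩⟩
    have h1 : Nat.card G = 1 := by
      rw [← Subgroup.card_top (G := G), htop, Subgroup.card_bot]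
    rw [h1, Nat.dvd_one] at hnG
    omega
  have hprime : ∀ p : ℕ, p.Prime → Nat.card G = p → False := fun p hp hc => by
    haveI := Fact.mk hp
    haveI := isCyclic_of_prime_card hc
    letI := IsCyclic.commGroup (α := G)
    exact hnot fun a b => mul_comm a b
  interval_cases hn : Nat.card Ω
  · have h : Nat.card G ∣ 2 := by simpa using hdvd
    exact hprime 2 Nat.prime_two (Nat.dvd_antisymm h hnG)
  · have h : Nat.card G ∣ 6 := by simpa [Nat.factorial] using hdvd
    obtain ⟨c, hc⟩ := hnG
    have hc6 : c ∣ 2 := by
      rw [hc] at h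
      exact (Nat.mul_dvd_mul_iff_left (by omega : 0 < 3)).1 (by simpa using h)
    have hc2 : c = 1 ∨ c = 2 := (Nat.dvd_prime Nat.prime_two).1 hc6
    rcases hc2 with rfl | rfl
    · exact hprime 3 Nat.prime_three (by omega)
    · haveI := Fact.mk Nat.prime_three
      obtain ⟨P⟩ : Nonempty (Sylow 3 G) := inferInstance
      have hP : Nat.card (P : Subgroup G) = 3 := by
        have hf : (3 * 2).factorization 3 = 1 := by
          rw [Nat.factorization_mul (by norm_num) (by norm_num), Finsupp.add_apply,
            Nat.prime_three.factorization_self, Nat.factorization_eq_zero_of_not_dvd (by norm_num)]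
        rw [Sylow.card_eq_multiplicity, hc, hf, pow_one]
      have hidx : (P : Subgroup G).index = 2 := by
        have := Subgroup.card_mul_index (P : Subgroup G)
        rw [hP, hc] at this
        omega
      haveI := isCyclic_of_prime_card hP
      letI := IsCyclic.commGroup (α := (P : Subgroup G))
      have hbot := hna (P : Subgroup G) (Subgroup.normal_of_index_eq_two hidx)
        ⟨⟨fun a b => mul_comm a b⟩⟩
      rw [hbot, Subgroup.card_bot] at hP
      omega

end Cfsg.Agent.DerIdx
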